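import Cfsg.Agent.BW.Val
import Cfsg.Agent.S0200
import Cfsg.Agent.S0205

/-! A nilpotency criterion for the terms of the lower central series. -/

set_option autoImplicit false

namespace Cfsg.Lib.BW

open Subgroup Cfsg.Lib.Trans

variable {G : Type*} [Group G]

/-- Values commute with an element as soon as the commutator has coprime order. -/
def KL (G : Type*) [Group G] (k : ℕ) : Prop :=
  ∀ x y : G, Val k x → (orderOf x).Coprime (orderOf (x * y * x⁻¹ * y⁻¹)) → x * y * x⁻¹ * y⁻¹ = 1

theorem KL_eq_1 : type_of% @KL.eq_1 := @KL.eq_1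

theorem KL.sub {k : ℕ} (h : KL G k) (H : Subgroup G) : KL H k := fun x y hx c =>
  Subtype.ext (h x y (hx.map H.subtype) (by
    rw [← orderOf_coe, ← orderOf_coe] at c; exact c))

theorem down {p : ℕ} {N : Subgroup G} {c : G} (hc : PE p c)
    (h : ∀ i, (c ^ p ^ i) ^ p ∈ N → c ^ p ^ i ∈ N) : c ∈ N := by
  obtain ⟨j, e⟩ := hc
  have : ∀ j, c ^ p ^ j ∈ N → c ∈ N := fun j => by
    induction j with
    | zero => simp
    | succ j ih => exact fun k => ih (h j (by rwa [← pow_mul, ← pow_succ]))
  exact this j (e ▸ one_mem N)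

theorem it_pow {P : Subgroup G} {a u : G} (ha : a ∈ normalizer (P : Set G)) (hu : u ∈ P)
    (hc : ∀ n, ∀ y ∈ P, it a n u * y = y * it a n u) (j : ℕ) :
    ∀ n, it a n (u ^ j) = it a n u ^ j
  | 0 => rfl
  | n + 1 => by
    rw [it_succ', it_succ', it_pow ha hu hc j n, mul_assoc, mul_assoc, ← mul_assoc a, ← inv_pow,
      ← conj_pow, ← Commute.mul_pow (hc n _ (mem_normalizer_conj ha (inv_mem (it_mem ha hu n))))]
    simp only [mul_assoc]

variable [Finite G]

theorem KL.cent {k p q : ℕ} [Fact p.Prime] (h : KL G k) (hq : q.Prime) (ne : p ≠ q)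
    {O : Subgroup G} [O.Normal] (hO : IsPGroup q O) {x : G}
    (hx : x ∈ (⊤ : Subgroup G).lowerCentralSeries k) (hp : PE p x) :
    x ∈ centralizer (O : Set G) := by
  have key : ∀ x, Val k x → PE p x → x ∈ centralizer (O : Set G) := fun x hx hp =>
    mem_centralizer_iff.2 fun y hy => (mul_inv_eq_iff_eq_mul.1 (mul_inv_eq_one.1 (h x y hx
      (hp.coprime ((PE.of_mem hO (mul_mem (Normal.conj_mem inferInstance y hy x)
        (inv_mem hy))).coprime ((Nat.coprime_primes hq Fact.out).2 ne.symm)).symm)))).symm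
  exact main (fun P hP a ha y hy => ⟨k, key _ (it_val a y k) (.of_mem hP (it_mem ha hy k))⟩)
    (fun P hP x hx => key _ (hx.map P.subtype) (.of_mem hP x.2)) hx hp

/-- It is enough to control the values of order `p` modulo `N`. -/
theorem main' {p k : ℕ} [Fact p.Prime] {N : Subgroup G} [N.Normal]
    (H : ∀ v, Val k v → PE p v → v ^ p ∈ N → v ∈ N) {x : G}
    (hx : x ∈ (⊤ : Subgroup G).lowerCentralSeries (k + 1)) (hp : PE p x) : x ∈ N := by
  let π := QuotientGroup.mk' N
  have m : ∀ {x}, x ∈ N ↔ π x = 1 := (QuotientGroup.eq_one_iff _).symm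
  have a : ∀ P : Subgroup G, IsPGroup p P → ∀ y ∈ P, ∀ x ∈ P, Val k x →
      x * y * x⁻¹ * y⁻¹ ∈ N := fun P hP y hy => by
    have b : ∀ n, ∀ x ∈ P, Val k x → it y n x ∈ N → x * y * x⁻¹ * y⁻¹ ∈ N := fun n => by
      induction n with
      | zero => exact fun x _ _ e => comm_mem (le_normalizer_of_normal (mem_top y)) e
      | succ n ih =>
        intro x hx v e
        have hc := comm_mem (le_normalizer hy) hx
        have k := m.1 (ih _ hc (v.comm y) e)
        simp only [map_mul, map_inv] at k
        have k' := comm_pow (mul_inv_eq_iff_eq_mul.1 (mul_inv_eq_one.1 k))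
        refine down (.of_mem hP hc) fun i e => ?_
        have := H _ (v.comm (y ^ p ^ i)) (.of_mem hP (comm_mem (le_normalizer (pow_mem hy _)) hx))
        simp only [m, map_mul, map_inv, map_pow, k'] at this e ⊢
        exact this e
    intro x hx v
    obtain ⟨n, hn⟩ := (isNilpotent_iff_lowerCentralSeries P).1 hP.isNilpotent
    have : ∀ n, it y n x ∈ P.lowerCentralSeries n := fun n => by
      induction n with
      | zero => exact hx
      | succ n ih => rw [it_succ']; exact commutator_mem_commutator ih hy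
    exact b n x hx v (bot_le (a := N) (hn ▸ this n))
  refine main (m := k + 1) (fun P hP b hb y hy => ⟨k + k, ?_⟩) (fun P hP x ⟨u, v, h, e⟩ => ?_) hx hp
  · have hu := it_mem hb hy k
    have hb' : π b ∈ normalizer (P.map π : Set _) := le_normalizer_map π ⟨b, hb, rfl⟩
    have e := it_pow hb' (mem_map_of_mem π hu) (by
      rintro n _ ⟨w, hw, rfl⟩
      have := m.1 (a P hP w hw _ (it_mem hb hu n) ((it_val b y k).it b n))
      simp only [map_mul, map_inv, it_map π b (it b k y)] at this
      exact mul_inv_eq_iff_eq_mul.1 (mul_inv_eq_one.1 this))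
    rw [it_add]
    refine down (.of_mem hP (it_mem hb hu k)) fun i e' => ?_
    have := H _ (it_val b (it b k y ^ p ^ i) k) (.of_mem hP (it_mem hb (pow_mem hu _) k))
    simp only [m, map_pow, it_map π b (it b k y), it_map π b (it b k y ^ p ^ i), e] at this e' ⊢
    exact this e'
  · rw [e]; exact a P hP v v.2 u u.2 (h.map P.subtype)

omit [Finite G] in
theorem eq_top_of_solvable [Group.IsPerfect G] {N : Subgroup G} [N.Normal]
    (h : Group.IsSolvable (G ⧸ N)) : N = ⊤ := by
  rw [← QuotientGroup.subsingleton_iff, ← not_nontrivial_iff_subsingleton]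
  exact fun _ => Group.IsPerfect.not_isSolvable _ h

theorem KL.perfect {k : ℕ} (h : KL G k) [Group.IsPerfect G] : Subsingleton G := by
  have top : ∀ n (x : G), x ∈ (⊤ : Subgroup G).lowerCentralSeries n := fun n x => by
    rw [Group.IsPerfect.lowerCentralSeries_eq_top]; trivial
  have c : ∀ O : Subgroup G, O.Normal → IsPGroup 2 O → O ≤ center G := fun O _ hO => by
    rw [← centralizer_eq_top_iff_subset.trans SetLike.coe_subset_coe]
    obtain ⟨n, hn⟩ : ∃ n, (centralizer (O : Set G)).index = 2 ^ n :=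
      ⟨_, Nat.eq_prime_pow_of_unique_prime_dvd index_ne_zero_of_finite fun {q} hq d =>
        by_contra fun ne => by
          have := Fact.mk hq
          exact not_dvd_index (fun x => h.cent Nat.prime_two ne hO (top k x)) d⟩
    have := (IsPGroup.of_card (p := 2) (G := G ⧸ centralizer (O : Set G)) hn).isNilpotent
    exact eq_top_of_solvable inferInstance
  let π := QuotientGroup.mk' (center G)
  have m : ∀ {x}, x ∈ center G ↔ π x = 1 := (QuotientGroup.eq_one_iff _).symm
  have H : ∀ v, Val k v → PE 2 v → v ^ 2 ∈ center G → v ∈ center G := fun v hv hp e => by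
    by_contra n
    obtain ⟨t, t1, t2, t3⟩ := Agent.S0200.result (π v)
      (orderOf_eq_prime (by rw [← map_pow, m.1 e]) fun k => n (m.2 k)) fun O _ hO hm => by
        have := hO.isNilpotent
        have := Subgroup.isNilpotent_of_ker_le_center (π.subgroupComap O) fun x hx =>
          mem_center_iff.2 fun y => Subtype.ext
            (mem_center_iff.1 (m.2 (congrArg Subtype.val (MonoidHom.mem_ker.1 hx))) y)
        obtain ⟨U, u1, u2, u3⟩ := exists_normal (L := O.comap π) hm hp
        exact n (c U u1 u2 u3)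
    obtain ⟨t, rfl⟩ := QuotientGroup.mk'_surjective _ t
    obtain ⟨a, b, hb, e'⟩ := Nat.exists_eq_two_pow_mul_odd (orderOf_pos t).ne'
    have s1 : (t ^ 2 ^ a) ^ b = 1 := by rw [← pow_mul, ← e', pow_orderOf_eq_one]
    have s2 : π (v * t ^ 2 ^ a * v⁻¹ * t ^ 2 ^ a) = 1 := by
      simp only [map_mul, map_inv, map_pow, ← conj_pow]
      rw [t3, inv_pow, inv_mul_cancel]
    have s3 : π (t ^ 2 ^ a) ≠ 1 := fun k => t1 ((pow_eq_one_iff_of_coprime
      ((Nat.coprime_two_left.2 t2).pow_left a)).1 ⟨(map_pow π _ _).symm.trans k,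
        pow_orderOf_eq_one _⟩)
    generalize t ^ 2 ^ a = s at s1 s2 s3
    have s4 : Commute (v * s * v⁻¹) s := by
      have := mem_center_iff.1 (m.2 s2) s
      rw [← mul_assoc s, mul_left_inj] at this
      exact this.symm
    have s5 := h v s hv (hp.coprime (Nat.coprime_two_left.2 (hb.of_dvd_nat
      (orderOf_dvd_of_pow_eq_one (by rw [s4.inv_right.mul_pow, conj_pow, inv_pow, s1]; simp)))))
    rw [mul_inv_eq_one.1 s5, ← pow_two, map_pow] at s2
    exact s3 ((pow_eq_one_iff_of_coprime (Nat.coprime_two_left.2 hb)).1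
      ⟨s2, by rw [← map_pow, s1, map_one]⟩)
  have z : center G = ⊤ := eq_top_of_solvable (Agent.S0205.result (Nat.not_even_iff_odd.1 fun e =>
    not_dvd_index (fun x => main' H (top _ x)) e.two_dvd))
  have : IsMulCommutative G := center_eq_top_iff.1 z
  exact Group.IsPerfect.subsingleton_of_isMulCommutative

theorem KL.nilpotent {k : ℕ} (h : KL G k) (N : Subgroup G) [N.Normal]
    (hN : N ≤ (⊤ : Subgroup G).lowerCentralSeries k) : Group.IsNilpotent N := by
  induction' hn : Nat.card N using Nat.strong_induction_on with n ih generalizing N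
  have le : ⁅N, N⁆ ≤ N := commutator_le_left N N
  rcases le.eq_or_lt with e | e
  · have := isPerfect_iff.2 e
    have := (h.sub N).perfect
    infer_instance
  have := ih _ (hn ▸ card_lt_of_lt e) ⁅N, N⁆ (le.trans hN) rfl
  refine (Group.isNilpotent_of_finite_tfae.out 3 0 rfl rfl).1 fun p _ P => ?_
  have n : (P.1 ⊔ _root_.commutator N).Normal := Normal.of_commutator_le _ le_sup_right
  have k : _root_.commutator N ≤ normalizer (P : Set N) := le_of_pe fun q hq x hx hp => by
    have := Fact.mk hq
    obtain ⟨O, o1, o2, o3⟩ := exists_normal (L := ⁅N, N⁆) (v := x.1)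
      (N.map_subtype_commutator ▸ mem_map_of_mem _ hx) (hp.imp fun _ e => congrArg Subtype.val e)
    by_cases e : p = q
    · subst e
      exact le_normalizer ((isPGroup_subgroupOf o2 N).le_sylow_of_normal P o3)
    · exact centralizer_le_normalizer _ (mem_centralizer_iff.2 fun y hy => Subtype.ext
        (mem_centralizer_iff.1 (h.cent hq e o2 (hN y.2)
          ((PE.of_mem P.2 hy).imp fun _ e => congrArg Subtype.val e)) x o3).symm)
  rw [← normalizer_eq_top_iff, eq_top_iff, ← P.normalizer_sup_eq_top' (N := P.1 ⊔ _root_.commutator N)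
    le_sup_left]
  exact sup_le le_rfl (sup_le le_normalizer k)

omit [Finite G] in
theorem Val.exists_fn : ∀ {k : ℕ} {x : G}, Val k x → ∃ f : Fin (k + 1) → G,
    x = ((List.ofFn f).tail).foldl (fun a b => a * b * a⁻¹ * b⁻¹) (f 0)
  | 0, x, _ => ⟨fun _ => x, by simp⟩
  | k + 1, _, ⟨a, b, h, e⟩ => by
    obtain ⟨f, rfl⟩ := h.exists_fn
    refine ⟨Fin.snoc f b, ?_⟩
    rw [List.ofFn_succ', List.concat_eq_append, List.tail_append_of_ne_nil (by simp),
      List.foldl_append, ← Fin.castSucc_zero]
    simp only [Fin.snoc_castSucc, Fin.snoc_last, e, List.foldl_cons, List.foldl_nil]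

omit [Finite G] in
theorem foldl_mem : ∀ (l : List G) {j : ℕ} {a : G}, a ∈ (⊤ : Subgroup G).lowerCentralSeries j →
    l.foldl (fun a b => a * b * a⁻¹ * b⁻¹) a ∈ (⊤ : Subgroup G).lowerCentralSeries (j + l.length)
  | [], _, _, h => h
  | b :: l, j, _, h => by
    rw [List.length_cons, ← add_assoc, add_right_comm]
    exact foldl_mem l (commutator_mem_commutator h (mem_top b))

end Cfsg.Lib.BW
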