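import Mathlib.GroupTheory.Nilpotent
import Mathlib.GroupTheory.IsPerfect
import Cfsg.Agent.S0071
import Cfsg.Agent.Trans.SylowIn

/-! Left-normed commutator values and normal `p`-complements. -/

set_option autoImplicit false

namespace Cfsg.Lib.BW

open Subgroup Cfsg.Lib.Trans

variable {G : Type*} [Group G]

/-- Left-normed commutator values of length `k + 1`. -/
def Val : ℕ → G → Prop
  | 0, _ => True
  | k + 1, x => ∃ a b, Val k a ∧ x = a * b * a⁻¹ * b⁻¹

theorem Val.map {H : Type*} [Group H] (f : G →* H) : ∀ {k : ℕ} {x : G}, Val k x → Val k (f x)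
  | 0, _, _ => trivial
  | _ + 1, _, ⟨a, b, h, e⟩ => ⟨f a, f b, h.map f, by simp [e]⟩

theorem Val.pred : ∀ {k : ℕ} {x : G}, Val (k + 1) x → Val k x
  | 0, _, _ => trivial
  | _ + 1, _, ⟨a, b, h, e⟩ => ⟨a, b, h.pred, e⟩

theorem Val.comm {k : ℕ} {x : G} (h : Val k x) (y : G) : Val k (x * y * x⁻¹ * y⁻¹) :=
  Val.pred ⟨x, y, h, rfl⟩

theorem Val.inv : ∀ {k : ℕ} {x : G}, Val k x → Val k x⁻¹
  | 0, _, _ => trivial
  | _ + 1, _, ⟨a, b, h, e⟩ => ⟨a⁻¹, a * b * a⁻¹, h.inv, by rw [e]; group⟩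

theorem lcs_le : ∀ {k : ℕ} {N : Subgroup G} [N.Normal], (∀ x, Val k x → x ∈ N) →
    (⊤ : Subgroup G).lowerCentralSeries k ≤ N
  | 0, _, _, h => fun x _ => h x trivial
  | k + 1, N, _, h => commutator_le.2 fun a ha b _ => by
    have := lcs_le (N := (center (G ⧸ N)).comap (QuotientGroup.mk' N)) (k := k) (fun x hx =>
      mem_center_iff.2 fun y => by
        obtain ⟨y, rfl⟩ := QuotientGroup.mk'_surjective N y
        have := (QuotientGroup.eq_one_iff _).2 (h _ ⟨x, y, hx, rfl⟩)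
        exact (mul_inv_eq_iff_eq_mul.1 (mul_inv_eq_one.1 this)).symm) ha
    exact (QuotientGroup.eq_one_iff _).1 (mul_inv_eq_one.2 (mul_inv_eq_iff_eq_mul.2
      (mem_center_iff.1 this (QuotientGroup.mk' N b)).symm))

/-- Iterated commutator with `a`. -/
def it (a : G) (n : ℕ) (h : G) : G := (fun u => u * a * u⁻¹ * a⁻¹)^[n] h

theorem it_eq_1 : type_of% @it.eq_1 := @it.eq_1

theorem it_zero (a h : G) : it a 0 h = h := rfl

theorem it_succ (a : G) (n : ℕ) (h : G) : it a (n + 1) h = it a n (h * a * h⁻¹ * a⁻¹) := rfl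

theorem it_succ' (a : G) (n : ℕ) (h : G) :
    it a (n + 1) h = it a n h * a * (it a n h)⁻¹ * a⁻¹ := Function.iterate_succ_apply' ..

theorem it_add (a : G) (m n : ℕ) (h : G) : it a (m + n) h = it a m (it a n h) :=
  Function.iterate_add_apply ..

theorem it_val (a h : G) : ∀ n, Val n (it a n h)
  | 0 => trivial
  | n + 1 => ⟨_, a, it_val a h n, it_succ' a n h⟩

theorem Val.it {k : ℕ} {x : G} (h : Val k x) (a : G) : ∀ n, Val k (it a n x)
  | 0 => h
  | n + 1 => it_succ' a n x ▸ (h.it a n).comm a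

theorem it_map {H : Type*} [Group H] (f : G →* H) (a h : G) :
    ∀ n, f (it a n h) = it (f a) n (f h)
  | 0 => rfl
  | n + 1 => by simp [it_succ', it_map f a h n]

theorem comm_mem {P : Subgroup G} {a h : G} (ha : a ∈ normalizer (P : Set G)) (hh : h ∈ P) :
    h * a * h⁻¹ * a⁻¹ ∈ P := by
  rw [mul_assoc, mul_assoc, ← mul_assoc a]
  exact mul_mem hh ((mem_normalizer_iff.1 ha _).1 (inv_mem hh))

theorem it_mem {P : Subgroup G} {a h : G} (ha : a ∈ normalizer (P : Set G)) (hh : h ∈ P) :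
    ∀ n, it a n h ∈ P
  | 0 => hh
  | n + 1 => it_succ' a n h ▸ comm_mem ha (it_mem ha hh n)

theorem comm_pow {x y : G} (h : Commute (x * y * x⁻¹ * y⁻¹) y) (j : ℕ) :
    x * y ^ j * x⁻¹ * (y ^ j)⁻¹ = (x * y * x⁻¹ * y⁻¹) ^ j := by
  rw [mul_inv_eq_iff_eq_mul, ← h.mul_pow, ← conj_pow, inv_mul_cancel_right]

theorem engel {P : Subgroup G} {a : G} (ha : a ∈ normalizer (P : Set G))
    (hc : ∀ c ∈ P, (orderOf c).Coprime (orderOf a)) :
    ∀ (n : ℕ) {h : G}, h ∈ P → it a n h = 1 → h * a * h⁻¹ * a⁻¹ = 1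
  | 0, h, _, e => by rw [show h = 1 from e]; simp
  | n + 1, h, hh, e => by
    have k := comm_pow (mul_inv_eq_iff_eq_mul.1 (mul_inv_eq_one.1
      (engel ha hc n (comm_mem ha hh) e))) (orderOf a)
    rw [pow_orderOf_eq_one] at k
    exact (pow_eq_one_iff_of_coprime (hc _ (comm_mem ha hh))).1
      ⟨pow_orderOf_eq_one _, by rw [← k]; simp⟩

/-- `p`-elements. -/
def PE (p : ℕ) (x : G) : Prop := ∃ j, x ^ p ^ j = 1

theorem PE_eq_1 : type_of% @PE.eq_1 := @PE.eq_1

theorem PE.of_mem {p : ℕ} {P : Subgroup G} (hP : IsPGroup p P) {x : G} (hx : x ∈ P) : PE p x :=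
  (hP ⟨x, hx⟩).imp fun _ h => congrArg Subtype.val h

theorem PE.coprime {p n : ℕ} {x : G} (h : PE p x) (hn : p.Coprime n) : (orderOf x).Coprime n :=
  h.elim fun j e => (hn.pow_left j).coprime_dvd_left (orderOf_dvd_of_pow_eq_one e)

theorem PE.isPGroup {p : ℕ} {x : G} (h : PE p x) : IsPGroup p (zpowers x) := by
  rintro ⟨_, i, rfl⟩
  obtain ⟨j, e⟩ := h
  exact ⟨j, Subtype.ext (by
    change (x ^ i) ^ p ^ j = 1
    rw [← zpow_natCast, ← zpow_mul, mul_comm, zpow_mul, zpow_natCast, e, one_zpow])⟩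

variable [Finite G]

theorem not_dvd_index {p : ℕ} [Fact p.Prime] {N : Subgroup G} (h : ∀ x, PE p x → x ∈ N) :
    ¬ p ∣ N.index := fun k => by
  obtain ⟨P⟩ : Nonempty (Sylow p G) := inferInstance
  exact P.not_dvd_index (k.trans (index_dvd_of_le fun x hx => h x (.of_mem P.2 hx)))

theorem le_of_pe {M H : Subgroup G} (h : ∀ p, p.Prime → ∀ x ∈ M, PE p x → x ∈ H) : M ≤ H := by
  rw [← subgroupOf_eq_top, ← index_eq_one, Nat.eq_one_iff_not_exists_prime_dvd]
  intro p hp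
  have := Fact.mk hp
  exact not_dvd_index fun x ⟨j, e⟩ => h p hp x x.2 ⟨j, congrArg Subtype.val e⟩

theorem exists_normal {p : ℕ} [Fact p.Prime] {L : Subgroup G} [L.Normal] [Group.IsNilpotent L]
    {v : G} (hv : v ∈ L) (h : PE p v) : ∃ O : Subgroup G, O.Normal ∧ IsPGroup p O ∧ v ∈ O := by
  obtain ⟨S, hS⟩ := (PE.isPGroup (x := (⟨v, hv⟩ : L))
    (h.imp fun _ e => Subtype.ext e)).exists_le_sylow
  have : S.Normal := inferInstance
  have := S.characteristic_of_normal this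
  exact ⟨S.1.map L.subtype, inferInstance, S.2.map _, ⟨_, hS (mem_zpowers _), rfl⟩⟩

/-- Frobenius' theorem applied to `G / N`. -/
theorem main {p m : ℕ} [Fact p.Prime] {N : Subgroup G} [N.Normal]
    (h1 : ∀ P : Subgroup G, IsPGroup p P → ∀ a ∈ normalizer (P : Set G), ∀ h ∈ P,
      ∃ n, it a n h ∈ N)
    (h2 : ∀ P : Subgroup G, IsPGroup p P → ∀ x : P, Val m x → x.1 ∈ N) {x : G}
    (hx : x ∈ (⊤ : Subgroup G).lowerCentralSeries m) (hp : PE p x) : x ∈ N := by
  let π := QuotientGroup.mk' N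
  have hs : Function.Surjective π := QuotientGroup.mk'_surjective N
  obtain ⟨S⟩ : Nonempty (Sylow p G) := inferInstance
  obtain ⟨K, hK, c⟩ := (Agent.S0071.result (S.mapSurjective hs)).2 fun Q hQ a ha co => by
    obtain ⟨a, rfl⟩ := hs a
    have hQ' : IsPGroup p Q := (S.mapSurjective hs).2.to_le hQ
    obtain ⟨T, hT⟩ := exists_isSylowIn (p := p) (Q.comap π)
    have e : Q = T.map π := by
      have := hT.map π
      rw [map_comap_eq_self_of_surjective hs] at this
      exact this.eq_of_le hQ' this.le le_rfl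
    obtain ⟨c, hc, k⟩ := hT.exists_cj_le (isPGroup_cj hT.isPGroup a) (cj_le_iff.2 fun t ht => by
      rw [mem_comap, map_mul, map_mul, map_inv]
      exact mem_normalizer_conj ha (hT.le ht))
    rw [cj_cj] at k
    obtain ⟨t, ht, e'⟩ : π c ∈ T.map π := e ▸ hc
    have n : t⁻¹ * (c * a) ∈ normalizer (T : Set G) :=
      mul_mem (le_normalizer (inv_mem ht)) (mem_normalizer_of_cj_le k)
    refine mem_centralizer_iff.2 fun y hy => ?_
    obtain ⟨h, hh, rfl⟩ : y ∈ T.map π := e ▸ hy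
    obtain ⟨j, hj⟩ := h1 T hT.isPGroup _ n h hh
    have := (QuotientGroup.eq_one_iff _).2 hj
    rw [← QuotientGroup.mk'_apply, it_map, map_mul, map_mul, map_inv, e',
      inv_mul_cancel_left] at this
    exact mul_inv_eq_iff_eq_mul.1 (mul_inv_eq_one.1
      (engel ha (fun c hc => (PE.of_mem hQ' hc).coprime co.symm) j hy this))
  let ρ := (QuotientGroup.mk' K).comp π
  have e : (S : Subgroup G).map ρ = (⊤ : Subgroup G).map ρ := by
    rw [← map_map, ← map_map, ← MonoidHom.range_eq_map π, MonoidHom.range_eq_top.2 hs,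
      ← c.sup_eq_top, Subgroup.map_sup, QuotientGroup.map_mk'_self, bot_sup_eq]
    rfl
  have hx' := mem_map_of_mem ρ hx
  rw [map_lowerCentralSeries, ← e, ← map_lowerCentralSeries, ← top_subtype_lowerCentralSeries] at hx'
  obtain ⟨_, ⟨y, hy, rfl⟩, e'⟩ := hx'
  have k : π x ∈ K := by
    have : π y.1 = 1 := (QuotientGroup.eq_one_iff y.1).2
      (lcs_le (N := N.subgroupOf S) (fun x hx => h2 S S.2 x hx) hy)
    rw [← QuotientGroup.eq_one_iff]
    exact e'.symm.trans ((congrArg (QuotientGroup.mk' K) this).trans (map_one _))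
  obtain ⟨j, hj⟩ := hp
  exact (QuotientGroup.eq_one_iff x).1 ((pow_eq_one_iff_of_coprime
    (((Nat.Prime.coprime_iff_not_dvd Fact.out).2 (c.index_eq_card ▸
      (S.mapSurjective hs).not_dvd_index)).pow_left j)).1 ⟨(map_pow π x _).symm.trans (by
        rw [hj, map_one]), congrArg Subtype.val (pow_card_eq_one' (x := (⟨_, k⟩ : K)))⟩)

end Cfsg.Lib.BW
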